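import Cfsg.Agent.H378.OmD4Lat

/-!
# S3509, row `³D₄(q)`, box T4a: the closed subsets of the positive roots of `D₄` stable under `w τ` (helper566)

* `exists_L75` : a closed set of positive roots is one of 75 sets;
* `concl` : those stable under a matrix of `Tab`, other than the whole set.
-/

set_option autoImplicit false

namespace Cfsg.Agent.H566.TD

open Cfsg.Agent.H378.OmD4

/-- the `i`-th positive root -/
def posI (i : ℕ) : V := pos.getD i ⟨0, 0, 0, 0⟩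

/-- the sums of positive roots -/
def trip : List (ℕ × ℕ × ℕ) := [(0, 1, 4), (0, 5, 7), (0, 6, 8), (0, 9, 10), (1, 2, 5), (1, 3, 6), (1, 10, 11), (2, 4, 7), (2, 6, 9), (2, 8,
  10), (3, 4, 8), (3, 5, 9), (3, 7, 10), (4, 9, 11), (5, 8, 11), (6, 7, 11)]

theorem trip_spec : ∀ t ∈ trip, t.1 < 12 ∧ t.2.1 < 12 ∧ t.2.2 < 12 ∧ (posI t.1).add (posI t.2.1) = posI t.2.2 := by
  decide +kernel

def clB (m : ℕ) : Bool := trip.all fun t =>
  !(m.testBit t.1 && m.testBit t.2.1 && !m.testBit t.2.2) && !(m.testBit t.1 && m.testBit t.2.2 && !m.testBit t.2.1) &&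
    !(m.testBit t.2.1 && m.testBit t.2.2 && !m.testBit t.1)

def L75 : List ℕ := [0, 1, 2, 4, 5, 8, 9, 12, 13, 16, 19, 32, 38, 48, 64, 74, 80, 96, 112, 128, 130, 148, 161, 183, 256, 258, 280,
  321, 347, 384, 386, 512, 514, 552, 580, 622, 640, 642, 768, 770, 896, 898, 1024, 1040, 1056, 1072, 1088, 1104,
  1120, 1136, 1160, 1284, 1436, 1537, 1705, 1861, 2048, 2049, 2052, 2053, 2056, 2057, 2060, 2061, 2240, 2336,
  2529, 2576, 2772, 2872, 3074, 3274, 3366, 3603, 4095]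

theorem clB_L75 : ((List.range 4096).all fun m => !clB m || L75.elem m) = true := by decide +kernel

/-- the set of positive roots with number `m` -/
def sub (m : ℕ) : List V := ((List.range 12).filter fun i => m.testBit i).map posI

theorem mem_sub {m : ℕ} {v : V} : v ∈ sub m ↔ ∃ i < 12, m.testBit i = true ∧ posI i = v := by
  rw [sub, List.mem_map]
  constructor
  · rintro ⟨i, hi, rfl⟩
    rw [List.mem_filter, List.mem_range] at hi
    exact ⟨i, hi.1, hi.2, rfl⟩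
  · rintro ⟨i, hi, h, rfl⟩
    exact ⟨i, List.mem_filter.2 ⟨List.mem_range.2 hi, h⟩, rfl⟩

theorem posI_mem : ∀ i < 12, posI i ∈ pos := by decide +kernel

theorem exists_posI : ∀ v ∈ pos, ∃ i < 12, posI i = v := by decide +kernel

theorem sub_subset {m : ℕ} {v : V} (h : v ∈ sub m) : v ∈ pos := by
  obtain ⟨i, hi, -, rfl⟩ := mem_sub.1 h
  exact posI_mem i hi

theorem sub_full : ∀ v ∈ pos, v ∈ sub 4095 := by decide +kernel

/-- **closed sets of positive roots** -/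
theorem exists_L75 {P : V → Prop}
    (h1 : ∀ u ∈ pos, ∀ v ∈ pos, u.add v ∈ pos → P u → P v → P (u.add v))
    (h2 : ∀ u ∈ pos, ∀ v ∈ pos, u.add v ∈ pos → P u → P (u.add v) → P v)
    (h3 : ∀ u ∈ pos, ∀ v ∈ pos, u.add v ∈ pos → P v → P (u.add v) → P u) :
    ∃ m ∈ L75, ∀ v ∈ pos, P v ↔ v ∈ sub m := by
  classical
  set m := Nat.ofBits (fun i : Fin 12 => decide (P (posI i))) with hm
  have hb : ∀ i < 12, m.testBit i = decide (P (posI i)) := fun i hi => by
    rw [hm, Nat.testBit_ofBits_lt _ i hi]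
  have hlt : m < 4096 := Nat.ofBits_lt_two_pow _
  have hcl : clB m = true := by
    rw [clB, List.all_eq_true]
    intro t ht
    obtain ⟨ha, hb', hc, he⟩ := trip_spec t ht
    rw [hb _ ha, hb _ hb', hb _ hc]
    have k1 := h1 _ (posI_mem _ ha) _ (posI_mem _ hb') (he ▸ posI_mem _ hc)
    have k2 := h2 _ (posI_mem _ ha) _ (posI_mem _ hb') (he ▸ posI_mem _ hc)
    have k3 := h3 _ (posI_mem _ ha) _ (posI_mem _ hb') (he ▸ posI_mem _ hc)
    rw [he] at k1 k2 k3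
    by_cases p1 : P (posI t.1) <;> by_cases p2 : P (posI t.2.1) <;> by_cases p3 : P (posI t.2.2) <;>
      simp [p1, p2, p3] <;> first
        | exact p3 (k1 p1 p2)
        | exact p2 (k2 p1 p3)
        | exact p1 (k3 p2 p3)
  have h4 := List.all_eq_true.1 clB_L75 m (List.mem_range.2 hlt)
  rw [hcl] at h4
  have h5 : m ∈ L75 := by simpa using h4
  refine ⟨m, h5, fun v hv => ?_⟩
  rw [mem_sub]
  constructor
  · intro hP
    obtain ⟨i, hi, rfl⟩ := exists_posI v hv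
    exact ⟨i, hi, by rw [hb i hi, decide_eq_true_iff]; exact hP, rfl⟩
  · rintro ⟨i, hi, h, rfl⟩
    rwa [hb i hi, decide_eq_true_iff] at h

/-- the roots -/
def rts : List V := pos ++ pos.map fun v => v.sm (-1)

/-- strongly orthogonal -/
def so (u v : V) : Prop := u.add v ∉ rts ∧ u.add (v.sm (-1)) ∉ rts ∧ u ≠ v

instance (u v : V) : Decidable (so u v) := inferInstanceAs (Decidable (_ ∧ _))

/-- the Cartan form -/
def bf (u v : V) : ℤ := 2 * (u.a * v.a + u.b * v.b + u.c * v.c + u.d * v.d) - (u.a * v.b + u.b * v.a) -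
  (u.b * v.c + u.c * v.b) - (u.b * v.d + u.d * v.b)

/-- the span condition -/
def sp (F : Mx) (b : V) : Prop := ∀ j : Fin 4,
  (F.ap (F.ap (bas j))).add ((bas j).sm (-1)) =
    ((b.sm (bf ((F.ap (F.ap (bas j))).add ((bas j).sm (-1))) b / 2)).add
      ((F.ap b).sm (bf ((F.ap (F.ap (bas j))).add ((bas j).sm (-1))) (F.ap b) / 2))).add
      ((F.ap (F.ap b)).sm (bf ((F.ap (F.ap (bas j))).add ((bas j).sm (-1))) (F.ap (F.ap b)) / 2))

instance (F : Mx) (b : V) : Decidable (sp F b) := inferInstanceAs (Decidable (∀ j : Fin 4, _))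

/-- the conclusion -/
def Co (F : Mx) (S : List V) : Prop :=
  S = [] ∨
  (∃ b ∈ S, F.ap b = b ∧ ∀ v ∈ S, v = b) ∨
  (∃ b ∈ S, F.ap b ∈ S ∧ F.ap (F.ap b) ∈ S ∧ F.ap (F.ap (F.ap b)) = b ∧ so b (F.ap b) ∧
    so (F.ap b) (F.ap (F.ap b)) ∧ so b (F.ap (F.ap b)) ∧ sp F b ∧
    ((∀ v ∈ S, v = b ∨ v = F.ap b ∨ v = F.ap (F.ap b)) ∨
      ∃ c ∈ S, F.ap c = c ∧ so b c ∧ so (F.ap b) c ∧ so (F.ap (F.ap b)) c ∧
        ∀ v ∈ S, v = c ∨ v = b ∨ v = F.ap b ∨ v = F.ap (F.ap b))) ∨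
  ∃ a ∈ S, ∃ b ∈ S, a.add b ∈ S ∧ ((F.ap a = a ∧ F.ap b = b) ∨ (F.ap a = b ∧ F.ap b = a)) ∧
    ∀ v ∈ S, v = a ∨ v = b ∨ v = a.add b

instance (F : Mx) (S : List V) : Decidable (Co F S) := inferInstanceAs (Decidable (_ ∨ _))

theorem concl : ∀ e ∈ Tab, ∀ m ∈ L75, (∀ v ∈ sub m, e.1.ap v ∈ sub m) → m = 4095 ∨ Co e.1 (sub m) := by
  decide +kernel

end Cfsg.Agent.H566.TD
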