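import Cfsg.Agent.H922.RG.NiA
import Cfsg.Agent.H169.RG.ImgFr
import Cfsg.Agent.H441.RG.CentTF
import Cfsg.Agent.H566.TD.Phi

/-!
# S3509, row `³D₄(q)`, box T1, lemma C1 (helper566)

* `eq_one_of_commW` : the frame version;
* `eq_one_of_comm` : `Sx t` of type `A₂` with base `a, b`: the elements of `PK` commuting with the fixed points of the
  root groups of `± (a + b)` are trivial.
-/

set_option autoImplicit false
set_option linter.unusedSectionVars false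

namespace Cfsg.Agent.H566.TD

open CoxeterSystem Cfsg.Agent.ChevalleyStructure.CoxeterGeom Cfsg.Agent.Tits.Roots Cfsg.Agent.Tits.Core
  Cfsg.Agent.Tits.RootComb Cfsg.Agent.Tits.Exchange Cfsg.Agent.Nodes.Reps Cfsg.Agent.Nodes.BNOf
  Cfsg.Agent.Nodes.StabComb Cfsg.Agent.Nodes.Bruhat Cfsg.Agent.Nodes.OppDec Cfsg.Agent.Nodes.LeviDec
  Cfsg.Agent.Nodes.NormalForm Cfsg.Agent.Nodes.SubComb Cfsg.Agent.KFacts.RgdField
  Cfsg.Agent.BpExc.TorCent Cfsg.Agent.BpExc.Tow Cfsg.Agent.BpExc.Fr Cfsg.Agent.BpExc.Pair Cfsg.Agent.H28.RG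
  Cfsg.Agent.H441.RG Cfsg.Agent.H169.RG

section Frame

variable {I W Y : Type*} [Fintype I] [DecidableEq I] [Group W] [Finite W] [Group Y] {M : CoxeterMatrix I}
  {cs : CoxeterSystem M W} {A : I → I → ℤ} {h : IsCartan M A} {p : ℕ}
  {J : Type*} [Preorder J] {T : J → Subgroup Y} {n : I → Y} {X : J → (I → ℤ) → Subgroup Y}
  {F : Type*} [Field F] {xx : (I → ℤ) → F → Y} {χ : (I → ℤ) → Y → F}
  (H : Tow cs h p T n X) (C : Coords cs h (TL T) n (XL X) xx χ)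
  {α : MulAut Y} {θ : (I → ℤ) ≃+ (I → ℤ)} (Fα : Fr cs h (TL T) (XL X) α θ)
  {t : Y} (Dt : CW cs h T X χ θ t) {β : I → ℤ} (Bβ : Top cs h χ θ t β)

include H C Fα Dt Bβ

theorem eq_one_of_commW {a b : I → ℤ} (hβ : β = a + b) (ha : a ∈ Sx cs h χ t) (hb : b ∈ Sx cs h χ t)
    (hP : ∀ c ∈ Sx cs h χ t, 0 ≤ c → c = a ∨ c = b ∨ c = β) {g k : Y} (hg : g ∈ PP0 cs h X χ α t)
    (hk : k ∈ Xb X α β ⊔ Xb X α (-β)) (hkX : cjS k (Xb X α β) = Xb X α (-β))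
    (npg : ¬ IsPGroup p ↥(Xb X α β ⊔ Xb X α (-β))) (hgk : g * k = k * g) : g = 1 := by
  have hkC : k ∈ fixC α t := by
    refine (sup_le ?_ ?_ : Xb X α β ⊔ Xb X α (-β) ≤ fixC α t) hk
    · exact (Xb_le Dt Bβ).trans fun x hx => mem_fixC.2 ⟨hx.2, comm_Up C Dt.ht hx.1⟩
    · exact (Xb_neg_le C Dt Bβ).trans fun x hx => mem_fixC.2 ⟨hx.2, comm_Un C Dt.ht hx.1⟩
  obtain ⟨hαk, hkt⟩ := mem_fixC.1 hkC
  obtain ⟨w, u, hu, hαu, k', hk', hkt', hαk', v, hv, hαv, -, rfl⟩ := form_fixW H C Fα Dt hkt hαk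
  -- `w β = -β`
  have hw : rep cs h w β = -β := by
    by_contra hw
    apply npg
    have h1 : cjS v (Xb X α β) = Xb X α β := cjS_eq_of_comm fun x hx => comm_UpW Dt Bβ hv hx.1
    have h2 : cjS u (Xb X α β) = Xb X α β := cjS_eq_of_comm fun x hx => comm_UpW Dt Bβ hu hx.1
    have h3 : cjS k' (Xb X α β) = Xb X α (rep cs h w β) := cjS_Xb_of_eq hαk' (H.conj_rp hk' Bβ.mem.1)
    have h4 : cjS (u * k' * v) (Xb X α β) = cjS u (Xb X α (rep cs h w β)) := by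
      rw [cjS_mul, h1, cjS_mul, h3]
    rw [← hkX, h4]
    have h5 : Xb X α β ⊔ cjS u (Xb X α (rep cs h w β)) = cjS u (Xb X α β ⊔ Xb X α (rep cs h w β)) := by
      rw [cjS_sup, h2]
    rw [h5]
    apply cjS_pgroup
    have hne : β ≠ -rep cs h w β := by
      intro h6
      apply hw
      exact (neg_eq_iff_eq_neg.2 h6).symm
    exact (isPGroup_XL H Bβ.mem.1 (Bβ.mem.1.act w) hne).to_le
      (sup_le (le_trans inf_le_left le_sup_left) (le_trans inf_le_left le_sup_right))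
  -- `w` stabilises `Sx t`
  have hwS : ∀ c ∈ Sx cs h χ t, rep cs h w c ∈ Sx cs h χ t := by
    intro c hc
    refine ⟨hc.1.act w, ?_⟩
    have h5 := C.chi_rp H.nsys hk' hc.1 Dt.ht
    have e : k' * t * k'⁻¹ = t := by rw [hkt']; group
    rw [e] at h5
    rw [h5]
    exact hc.2
  have hab : rep cs h w a + rep cs h w b = -(a + b) := by
    rw [← map_add, ← hβ, hw]
  have key : ∀ c d : I → ℤ, c ∈ Sx cs h χ t → d ∈ Sx cs h χ t → rep cs h w c + rep cs h w d = -β →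
      rep cs h w c ≤ 0 := by
    intro c d hc hd e
    rcases (hc.1.act w).pos_or_neg with h0 | h0
    · exfalso
      refine Bβ.top _ (hwS c hc) h0 ?_
      have e2 : β + rep cs h w c = -rep cs h w d := by
        have : rep cs h w c = -β - rep cs h w d := eq_sub_of_add_eq e
        rw [this]; abel
      rw [e2]
      exact (hd.1.act w).neg
    · exact h0
  have hwN : ∀ c ∈ SP cs h χ t, rep cs h w c ∈ SN cs h χ t := by
    rintro c ⟨hc, h0⟩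
    refine ⟨hwS c hc, ?_⟩
    rcases hP c hc h0 with rfl | rfl | rfl
    · exact key _ b ha hb (by rw [hab, hβ])
    · exact key _ a hb ha (by rw [add_comm, hab, hβ])
    · rw [hw]
      exact neg_nonpos.2 Bβ.pos
  -- the end
  have h1 : v * g * v⁻¹ ∈ Up cs h X χ t := mul_mem (mul_mem hv hg.1) (inv_mem hv)
  have h2 : k' * (v * g * v⁻¹) * k'⁻¹ ∈ Un cs h X χ t :=
    conj_SupL H hk' (S := SP cs h χ t) (S' := SN cs h χ t) (fun x hx => hx.1.1) hwN h1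
  have h3 : k' * (v * g * v⁻¹) * k'⁻¹ = u⁻¹ * g * u := by
    have e1 : k' * (v * g * v⁻¹) * k'⁻¹ = u⁻¹ * ((u * k' * v) * g) * (v⁻¹ * k'⁻¹) := by group
    rw [e1, ← hgk]
    group
  rw [h3] at h2
  have h4 : u⁻¹ * g * u ∈ Up cs h X χ t := mul_mem (mul_mem (inv_mem hu) hg.1) hu
  have h5 := eq_one_of_pos_neg H (Up_le h4) (Un_le h2)
  have e : g = u * (u⁻¹ * g * u) * u⁻¹ := by group
  rw [e, h5]
  group

end Frame

end Cfsg.Agent.H566.TD

namespace Cfsg.Agent.H566.TD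

open CoxeterSystem Cfsg Cfsg.Lie Cfsg.Lie.ChevalleyDatum
open Cfsg.Agent.ChevalleyStructure Cfsg.Agent.ChevalleyStructure.Elts Cfsg.Agent.ChevalleyStructure.CoxeterGeom
  Cfsg.Agent.ChevalleyStructure.CoxeterGeomTypes Cfsg.Agent.ChevalleyStructure.NPerm
open Cfsg.Agent.Tits.Roots Cfsg.Agent.Tits.Core Cfsg.Agent.Nodes Cfsg.Agent.Nodes.Reps Cfsg.Agent.Nodes.BNOf
  Cfsg.Agent.Nodes.RGDChev Cfsg.Agent.Nodes.Bruhat Cfsg.Agent.Nodes.NormalForm
open Cfsg.Agent.KFacts.RgdField Cfsg.Agent.KFacts.RgdChevCoord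
open Cfsg.Agent.BpExc Cfsg.Agent.BpExc.TorCent Cfsg.Agent.BpExc.TorChev Cfsg.Agent.BpExc.Tow
  Cfsg.Agent.BpExc.TowChev Cfsg.Agent.BpExc.Fr Cfsg.Agent.BpExc.Pair Cfsg.Agent.BpExc.LangFr Cfsg.Agent.GpExc.Field
  Cfsg.Agent.BpExc.NInst Cfsg.Agent.BpExc.NChev
open Cfsg.Agent.H469.Exc Cfsg.Agent.H316.U6 Cfsg.Agent.H169.RG Cfsg.Agent.H28.RG Cfsg.Agent.H864.TD
open Cfsg.Agent.H922.RG
open Cfsg.Agent.H378.OmD4 (V pos fn_add fn_inj mem_pos)

universe u v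

/-- `a + b` is the highest root -/
theorem top_tab : ∀ u ∈ pos, ∀ v ∈ pos, u.add v ∈ pos → (u.add v).add u ∉ rts ∧ (u.add v).add v ∉ rts ∧
    (u.add v).add (u.add v) ∉ rts := by decide +kernel

theorem top_root {a b : Fin 4 → ℤ} (ha : IsRoot coxeterD4.toCoxeterSystem RGDTwD4.hp.isCartan a)
    (hb : IsRoot coxeterD4.toCoxeterSystem RGDTwD4.hp.isCartan b)
    (hab : IsRoot coxeterD4.toCoxeterSystem RGDTwD4.hp.isCartan (a + b)) (ha0 : 0 ≤ a) (hb0 : 0 ≤ b) {c : Fin 4 → ℤ}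
    (hc : c = a ∨ c = b ∨ c = a + b) : ¬ IsRoot coxeterD4.toCoxeterSystem RGDTwD4.hp.isCartan (a + b + c) := by
  obtain ⟨u, hu, rfl⟩ := mem_pos coxeterD4.toCoxeterSystem ha ha0
  obtain ⟨v, hv, rfl⟩ := mem_pos coxeterD4.toCoxeterSystem hb hb0
  obtain ⟨x, hx, hx'⟩ := mem_pos coxeterD4.toCoxeterSystem hab (add_nonneg ha0 hb0)
  have e : u.add v = x := fn_inj (by rw [fn_add, hx'])
  obtain ⟨h1, h2, h3⟩ := top_tab u hu v hv (e ▸ hx)
  rcases hc with rfl | rfl | rfl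
  · rw [← fn_add, ← fn_add, isRoot_fn]
    exact h1
  · rw [← fn_add, ← fn_add, isRoot_fn]
    exact h2
  · rw [← fn_add, ← fn_add, isRoot_fn]
    exact h3

section

variable {r q : ℕ} [hr : Fact r.Prime] {K₀ : Type v} [Group K₀] {m : MData RGDTwD4.hp r q K₀}
  {y : ↥(chevD4.group (KK r))}

/-- **C1.** -/
theorem eq_one_of_comm (f : TorForm m y) {a b : Fin 4 → ℤ}
    (ha : IsRoot coxeterD4.toCoxeterSystem RGDTwD4.hp.isCartan a)
    (hb : IsRoot coxeterD4.toCoxeterSystem RGDTwD4.hp.isCartan b)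
    (hab : IsRoot coxeterD4.toCoxeterSystem RGDTwD4.hp.isCartan (a + b)) (ha0 : 0 ≤ a) (hb0 : 0 ≤ b)
    (hS : ∀ c, c ∈ Sx coxeterD4.toCoxeterSystem RGDTwD4.hp.isCartan (ch RGDTwD4.hp) f.t ↔ Six a b c)
    (hθ : f.θ (a + b) = a + b) {g : ↥(chevD4.group (KK r))}
    (hg : g ∈ H441.RG.PK RGDTwD4.hp coxeterD4.toCoxeterSystem f.α f.t)
    (h1 : ∀ x ∈ XX chevD4 4 (KK r) (a + b) ⊓ fixedSubgroup f.α, g * x = x * g)
    (h2 : ∀ x ∈ XX chevD4 4 (KK r) (-(a + b)) ⊓ fixedSubgroup f.α, g * x = x * g) : g = 1 := by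
  have := finite_W RGDTwD4.hp coxeterD4.toCoxeterSystem
  have H := tow (k := KK r) RGDTwD4.hp coxeterD4.toCoxeterSystem (locFin r) r
  have C := coordK (hp := RGDTwD4.hp) (r := r)
  have hab0 : 0 ≤ a + b := add_nonneg ha0 hb0
  have hP : ∀ c ∈ Sx coxeterD4.toCoxeterSystem RGDTwD4.hp.isCartan (ch RGDTwD4.hp) f.t, 0 ≤ c →
      c = a ∨ c = b ∨ c = a + b := by
    intro c hc h0
    have hcr := hc.1
    rcases (hS c).1 hc with h | h | h | h | h | h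
    · exact Or.inl h
    · exact absurd (h ▸ neg_nonpos.2 ha0 : c ≤ 0) (fun h' => hcr.not_pos_neg h0 h')
    · exact Or.inr (Or.inl h)
    · exact absurd (h ▸ neg_nonpos.2 hb0 : c ≤ 0) (fun h' => hcr.not_pos_neg h0 h')
    · exact Or.inr (Or.inr h)
    · exact absurd (h ▸ neg_nonpos.2 hab0 : c ≤ 0) (fun h' => hcr.not_pos_neg h0 h')
  have Bβ : Top coxeterD4.toCoxeterSystem RGDTwD4.hp.isCartan (ch RGDTwD4.hp) f.θ f.t (a + b) :=
    { mem := (hS _).2 (Or.inr (Or.inr (Or.inr (Or.inr (Or.inl rfl)))))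
      pos := hab0
      fix := hθ
      top := fun c hc h0 => top_root ha hb hab ha0 hb0 (hP c hc h0) }
  have hI := imgK_fr (hp := RGDTwD4.hp) m.he f.frob f.fr hab hθ
  obtain ⟨k, hk, hkX⟩ := hI.img.conjY
  have hgk : ∀ z ∈ XX chevD4 4 (KK r) (a + b) ⊓ fixedSubgroup f.α ⊔
      XX chevD4 4 (KK r) (-(a + b)) ⊓ fixedSubgroup f.α, g * z = z * g := by
    intro z hz
    have h3 : XX chevD4 4 (KK r) (a + b) ⊓ fixedSubgroup f.α ⊔
        XX chevD4 4 (KK r) (-(a + b)) ⊓ fixedSubgroup f.α ≤ Subgroup.centralizer {g} := by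
      refine sup_le (fun x hx => ?_) (fun x hx => ?_)
      · exact Subgroup.mem_centralizer_singleton_iff.2 (h1 x hx).symm
      · exact Subgroup.mem_centralizer_singleton_iff.2 (h2 x hx).symm
    exact (Subgroup.mem_centralizer_singleton_iff.1 (h3 hz)).symm
  have hdisj : ∀ x ∈ XX chevD4 4 (KK r) (a + b) ⊓ fixedSubgroup f.α,
      x ∈ XX chevD4 4 (KK r) (-(a + b)) ⊓ fixedSubgroup f.α → x = 1 := by
    intro x hx hx'
    rw [← Xb_eq (hp := RGDTwD4.hp)] at hx hx'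
    exact Xb_disj H C f.cw Bβ hx hx'
  have npg := hI.img.npg rfl hdisj
  refine eq_one_of_commW H C f.frK f.cw Bβ rfl ((hS _).2 (Or.inl rfl)) ((hS _).2 (Or.inr (Or.inr (Or.inl rfl)))) hP
    (k := k) ?_ ?_ ?_ ?_ (hgk k hk)
  · rw [H441.RG.PP0_eq (locFin r)]
    exact hg
  · rw [Xb_eq, Xb_eq]
    exact hk
  · rw [Xb_eq, Xb_eq]
    exact hkX
  · rw [Xb_eq, Xb_eq]
    exact npg

end

end Cfsg.Agent.H566.TD
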