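import Cfsg.Agent.H922.RG.NiB
import Cfsg.Agent.H441.RG.CentTF
import Cfsg.Agent.H461.E2.Fix

/-!
# S3509, row `³D₄(q)`, box T1, NiD (iv) (helper566)

* `card_PK` : `|PK| = q³` for a toral form with root system `A₂`.
-/

set_option autoImplicit false
set_option linter.unusedSectionVars false

namespace Cfsg.Agent.H566.TD

open CoxeterSystem Cfsg Cfsg.Lie Cfsg.Lie.ChevalleyDatum
open Cfsg.Agent.ChevalleyStructure Cfsg.Agent.ChevalleyStructure.Elts Cfsg.Agent.ChevalleyStructure.CoxeterGeom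
  Cfsg.Agent.ChevalleyStructure.CoxeterGeomTypes Cfsg.Agent.ChevalleyStructure.NPerm
open Cfsg.Agent.Tits.Roots Cfsg.Agent.Tits.Core Cfsg.Agent.Nodes Cfsg.Agent.Nodes.Reps Cfsg.Agent.Nodes.BNOf
  Cfsg.Agent.Nodes.RGDChev Cfsg.Agent.Nodes.Bruhat Cfsg.Agent.Nodes.NormalForm
open Cfsg.Agent.KFacts.RgdField Cfsg.Agent.KFacts.RgdChevCoord
open Cfsg.Agent.BpExc Cfsg.Agent.BpExc.TorCent Cfsg.Agent.BpExc.TorChev Cfsg.Agent.BpExc.Tow
  Cfsg.Agent.BpExc.TowChev Cfsg.Agent.BpExc.Fr Cfsg.Agent.BpExc.Pair Cfsg.Agent.BpExc.LangFr Cfsg.Agent.GpExc.Field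
  Cfsg.Agent.BpExc.NInst Cfsg.Agent.BpExc.NChev
open Cfsg.Agent.H469.Exc Cfsg.Agent.H316.U6 Cfsg.Agent.H169.RG Cfsg.Agent.H28.RG Cfsg.Agent.H441.RG
  Cfsg.Agent.H864.TD Cfsg.Agent.H922.RG
open Cfsg.Agent.H129.TorusChar
open Cfsg.Agent.H378.OmD4 (V pos fn_add fn_inj mem_pos)

universe u v

section

variable {r q : ℕ} [hr : Fact r.Prime] {K₀ : Type v} [Group K₀] {m : MData RGDTwD4.hp r q K₀}
  {y : ↥(chevD4.group (KK r))} {f : TorForm m y} {a b : Fin 4 → ℤ}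

/-- the positive roots trivial on `t` -/
theorem ab_sp_eq (h : AB f a b) :
    SP coxeterD4.toCoxeterSystem RGDTwD4.hp.isCartan (ch RGDTwD4.hp) f.t = {a, b, a + b} := by
  ext c
  simp only [Set.mem_insert_iff, Set.mem_singleton_iff]
  constructor
  · rintro ⟨hc, h0⟩
    exact h.pos3 ((h.six c).1 hc) h0
  · rintro (rfl | rfl | rfl)
    · exact ⟨(h.six _).2 (Or.inl rfl), h.pa⟩
    · exact ⟨(h.six _).2 (Or.inr (Or.inr (Or.inl rfl))), h.pb⟩
    · exact ⟨(h.six _).2 (Or.inr (Or.inr (Or.inr (Or.inr (Or.inl rfl))))), add_nonneg h.pa h.pb⟩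

theorem ab_ncard_sp (h : AB f a b) :
    (SP coxeterD4.toCoxeterSystem RGDTwD4.hp.isCartan (ch RGDTwD4.hp) f.t).ncard = 3 := by
  have hba : a ≠ b := by
    rintro rfl
    obtain ⟨va, hva, hva'⟩ := mem_pos coxeterD4.toCoxeterSystem h.ra h.pa
    obtain ⟨vc, hvc, hvc'⟩ := mem_pos coxeterD4.toCoxeterSystem h.rab (add_nonneg h.pa h.pa)
    exact no3 va hva (by
      have e : va.add va = vc := fn_inj (by rw [fn_add, hva', hvc'])
      rw [e]; exact hvc)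
  have h1 : a ≠ a + b := fun e => h.rb.ne_zero (by simpa using e.symm)
  have h2 : b ≠ a + b := fun e => h.ra.ne_zero (by simpa using e.symm)
  rw [ab_sp_eq h, Set.ncard_eq_toFinset_card']
  simp only [Set.toFinset_insert, Set.toFinset_singleton]
  exact Finset.card_eq_three.2 ⟨a, b, a + b, hba, h1, h2, rfl⟩

/-- **NiD (iv).** -/
theorem card_PK (h : AB f a b) :
    Nat.card (PK RGDTwD4.hp coxeterD4.toCoxeterSystem f.α f.t) = q ^ 3 := by
  have hmc := isMC_cX RGDTwD4.hp f.mem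
  have h1 : Nat.card (PK RGDTwD4.hp coxeterD4.toCoxeterSystem f.α f.t) = (r ^ m.e) ^
      (SP coxeterD4.toCoxeterSystem RGDTwD4.hp.isCartan (ch RGDTwD4.hp) f.t).ncard := by
    refine H461.E2.Fix.card_fix (hp := RGDTwD4.hp) (locFin r) r m.he f.frob f.fr ?_ ?_ ?_
    · exact fun c hc => ⟨hc.1.1, hc.2⟩
    · rintro c hc d hd z hz ⟨i, j, -, -, rfl⟩
      refine ⟨⟨hz, ?_⟩, add_nonneg (nsmul_nonneg hc.2 i) (nsmul_nonneg hd.2 j)⟩
      have hc1 : cX RGDTwD4.hp f.t c = 1 := by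
        rw [cX_root RGDTwD4.hp coxeterD4.toCoxeterSystem f.mem hc.1.1]
        exact hc.1.2
      have hd1 : cX RGDTwD4.hp f.t d = 1 := by
        rw [cX_root RGDTwD4.hp coxeterD4.toCoxeterSystem f.mem hd.1.1]
        exact hd.1.2
      rw [← cX_root RGDTwD4.hp coxeterD4.toCoxeterSystem f.mem hz, hmc.add, hmc.nsmul, hmc.nsmul, hc1, hd1, one_pow,
        one_pow, one_mul]
    · exact fun c hc => ⟨(f.stab c).2 hc.1, f.pos c hc.1 hc.2⟩
  rw [h1, ab_ncard_sp h, m.hq]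

end

end Cfsg.Agent.H566.TD
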